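import Mathlib
import Cfsg.Agent.Lib.Helper50.HUPT.Defs

/-!
# HUPT project (S3360): package [E26]

A solvable subgroup of `GL_6(2)` that is transitive on the 63 non-zero vectors has a normal
cyclic irreducible subgroup.
-/

set_option autoImplicit false
set_option linter.style.haveILetI false

universe u v

namespace Cfsg.Agent.Lib.Helper68.HUPT

open Cfsg.Agent.Lib.Helper49.HUP (Irr)
open Cfsg.Agent.Lib.Helper50.HUPT

section lin

variable {q : ℕ} [Fact q.Prime] {V : Type u} [AddCommGroup V] [Module (ZMod q) V]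
  {G : Type v} [Group G]

theorem e26_toE_mul (ρ : G →* (V ≃ₗ[ZMod q] V)) (g h : G) :
    toE ρ (g * h) = toE ρ g * toE ρ h := by
  apply LinearMap.ext
  intro v
  simp [toE]

theorem e26_toE_one (ρ : G →* (V ≃ₗ[ZMod q] V)) : toE ρ 1 = 1 := by
  apply LinearMap.ext
  intro v
  simp [toE]

theorem e26_toE_pow (ρ : G →* (V ≃ₗ[ZMod q] V)) (g : G) (k : ℕ) :
    toE ρ (g ^ k) = toE ρ g ^ k := by
  induction k with
  | zero => rw [pow_zero, pow_zero, e26_toE_one]
  | succ k ih => rw [pow_succ, pow_succ, e26_toE_mul, ih]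

theorem e26_toE_inj (ρ : G →* (V ≃ₗ[ZMod q] V)) (hinj : Function.Injective ρ) :
    Function.Injective (toE ρ) := by
  intro g h hgh
  apply hinj
  apply LinearEquiv.ext
  intro v
  have := congrArg (fun T : Module.End (ZMod q) V => T v) hgh
  simpa [toE] using this

/-- an element acting as a member of a finite field `K` of endomorphisms has order dividing
`|K| - 1` -/
theorem e26_pow_card [Finite V] [Nontrivial V] (ρ : G →* (V ≃ₗ[ZMod q] V))
    (hinj : Function.Injective ρ) (K : Subalgebra (ZMod q) (Module.End (ZMod q) V))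
    (hK : IsFld K) (g : G) (hg : toE ρ g ∈ K) : g ^ (Nat.card K - 1) = 1 := by
  classical
  haveI : Finite (Module.End (ZMod q) V) :=
    Finite.of_injective (fun f : Module.End (ZMod q) V => (f : V → V)) DFunLike.coe_injective
  letI : Fintype K := Fintype.ofFinite K
  letI : CommRing K :=
    { (inferInstance : Ring K) with
      mul_comm := fun a b => Subtype.ext (hK.1 a.1 a.2 b.1 b.2) }
  obtain ⟨v₀, hv₀⟩ := exists_ne (0 : V)
  haveI : Nontrivial K := by
    refine ⟨⟨0, 1, ?_⟩⟩
    intro h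
    have h1 : (0 : Module.End (ZMod q) V) = 1 := congrArg Subtype.val h
    have h2 := congrArg (fun T : Module.End (ZMod q) V => T v₀) h1
    exact hv₀ (by simpa using h2.symm)
  haveI : NoZeroDivisors K := by
    refine ⟨fun {f g} h => ?_⟩
    by_cases hf : f = 0
    · exact Or.inl hf
    · right
      have hf1 : f.1 ≠ 0 := fun h0 => hf (Subtype.ext h0)
      have hi := hK.2 f.1 f.2 hf1
      apply Subtype.ext
      apply LinearMap.ext
      intro v
      have h1 : f.1 * g.1 = 0 := congrArg Subtype.val h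
      have h2 : f.1 (g.1 v) = f.1 0 := by
        rw [map_zero, ← Module.End.mul_apply, h1]; rfl
      exact hi h2
  haveI : IsDomain K := NoZeroDivisors.to_isDomain K
  letI : Field K := Fintype.fieldOfDomain K
  have hne : (⟨toE ρ g, hg⟩ : K) ≠ 0 := by
    intro h
    have h1 : toE ρ g = 0 := congrArg Subtype.val h
    have h2 := congrArg (fun T : Module.End (ZMod q) V => T v₀) h1
    have h3 : ρ g v₀ = 0 := by simpa [toE] using h2
    exact hv₀ (by simpa using h3)
  have hp := FiniteField.pow_card_sub_one_eq_one (⟨toE ρ g, hg⟩ : K) hne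
  have hp1 : toE ρ g ^ (Nat.card K - 1) = 1 := by
    have h4 := congrArg Subtype.val hp
    rw [Fintype.card_eq_nat_card] at h4
    exact h4
  apply e26_toE_inj ρ hinj
  rw [e26_toE_pow, hp1, e26_toE_one]

end lin

section grp

variable {G : Type v} [Group G]

theorem e26_ab_cl2 (A : Subgroup G) (hA : Ab A) : Cl2 A := by
  intro a ha b hb c hc
  have h1 : cm a b = 1 := by
    unfold cm
    rw [hA a ha b hb]
    group
  rw [h1, one_mul, mul_one]

theorem e26_arith (k m : ℕ) (h : 64 = k ^ m) (hlt : k < 64) : k = 2 ∨ k = 4 ∨ k = 8 := by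
  have hm : m ≠ 0 := by
    rintro rfl
    simp at h
  have hdvd : k ∣ 2 ^ 6 := by
    have h1 : k ∣ k ^ m := dvd_pow_self k hm
    rw [← h] at h1
    exact h1
  obtain ⟨j, hj, rfl⟩ := (Nat.dvd_prime_pow Nat.prime_two).1 hdvd
  have h2 : (2 : ℕ) ^ 6 = 2 ^ (j * m) := by
    rw [pow_mul, ← h]
    norm_num
  have h3 : 6 = j * m := Nat.pow_right_injective (le_refl 2) h2
  interval_cases j
  · omega
  · left; rfl
  · right; left; rfl
  · right; right; rfl
  · omega
  · omega
  · simp at hlt

theorem e26_sup_ab (B N : Subgroup G) (hB : Ab B) (hN : Ab N)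
    (hBN : B ≤ Subgroup.centralizer (N : Set G)) : Ab (B ⊔ N) := by
  have hBB : B ≤ Subgroup.centralizer (B : Set G) := fun a ha =>
    Subgroup.mem_centralizer_iff.2 (fun h hh => hB h hh a ha)
  have hNN : N ≤ Subgroup.centralizer (N : Set G) := fun a ha =>
    Subgroup.mem_centralizer_iff.2 (fun h hh => hN h hh a ha)
  have hNB : N ≤ Subgroup.centralizer (B : Set G) := Subgroup.le_centralizer_iff.1 hBN
  have h1 : B ≤ Subgroup.centralizer ((B ⊔ N : Subgroup G) : Set G) :=
    Subgroup.le_centralizer_iff.1 (sup_le hBB hNB)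
  have h2 : N ≤ Subgroup.centralizer ((B ⊔ N : Subgroup G) : Set G) :=
    Subgroup.le_centralizer_iff.1 (sup_le hBN hNN)
  intro a ha b hb
  exact (Subgroup.mem_centralizer_iff.1 (sup_le h1 h2 ha) b hb).symm

theorem e26_exists_ab (hsol : Group.IsSolvable G) (hnt : Nontrivial G) :
    ∃ N : Subgroup G, N.Normal ∧ Ab N ∧ N ≠ ⊥ := by
  classical
  have hex : ∃ n, derivedSeries G n = ⊥ := hsol.solvable
  have hk1 : derivedSeries G (Nat.find hex) = ⊥ := Nat.find_spec hex
  have hk0 : Nat.find hex ≠ 0 := by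
    intro h0
    rw [h0, derivedSeries_zero] at hk1
    exact top_ne_bot hk1
  obtain ⟨j, hj⟩ := Nat.exists_eq_succ_of_ne_zero hk0
  refine ⟨derivedSeries G j, derivedSeries_normal G j, ?_, ?_⟩
  · have h1 : ⁅derivedSeries G j, derivedSeries G j⁆ = ⊥ := by
      rw [← derivedSeries_succ, ← Nat.succ_eq_add_one, ← hj]
      exact hk1
    have hle := Subgroup.commutator_eq_bot_iff_le_centralizer.1 h1
    intro a ha b hb
    exact (Subgroup.mem_centralizer_iff.1 (hle ha) b hb).symm
  · intro hbot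
    exact Nat.find_min hex (by omega : j < Nat.find hex) hbot

theorem e26_pow_comm (a b : G) (hza : cm a b * a = a * cm a b) (k : ℕ) :
    a ^ k * b = cm a b ^ k * b * a ^ k := by
  induction k with
  | zero => simp
  | succ k ih =>
    have h1 : a * b = cm a b * b * a := by
      unfold cm
      simp [mul_assoc]
    have hzk : a * cm a b ^ k = cm a b ^ k * a :=
      ((show Commute a (cm a b) from hza.symm).pow_right k).eq
    calc a ^ (k + 1) * b = a * (a ^ k * b) := by rw [pow_succ', mul_assoc]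
      _ = a * (cm a b ^ k * b * a ^ k) := by rw [ih]
      _ = (a * cm a b ^ k) * b * a ^ k := by simp only [mul_assoc]
      _ = cm a b ^ k * (a * b) * a ^ k := by rw [hzk]; simp only [mul_assoc]
      _ = cm a b ^ k * (cm a b * b * a) * a ^ k := by rw [← h1]
      _ = cm a b ^ (k + 1) * b * a ^ (k + 1) := by
        rw [pow_succ, pow_succ']; simp only [mul_assoc]

end grp

section grp2

variable {G : Type v} [Group G]

/-- a normal subgroup of prime order `s` that is its own centralizer forces `|G| ≤ s (s - 1)` -/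
theorem e26_nc [Finite G] (N : Subgroup G) (hN : N.Normal) (s : ℕ) (hs : s.Prime)
    (hcard : Nat.card N = s) (hC : Subgroup.centralizer (N : Set G) ≤ N) :
    Nat.card G ≤ s * (s - 1) := by
  classical
  haveI := hN
  haveI : Fact s.Prime := ⟨hs⟩
  haveI : Nontrivial N := by
    rw [← Finite.one_lt_card_iff_nontrivial, hcard]
    exact hs.one_lt
  obtain ⟨n₀, hn₀⟩ := exists_ne (1 : N)
  have hgen : Subgroup.zpowers n₀ = ⊤ := zpowers_eq_top_of_prime_card hcard hn₀
  letI : MulAction G N := MulAction.compHom N (MulAut.conjNormal : G →* MulAut N)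
  have hsm : ∀ (g : G) (x : N), ((g • x : N) : G) = g * x * g⁻¹ := fun g x =>
    MulAut.conjNormal_apply g x
  have hidx := MulAction.index_stabilizer G n₀
  have hmul := Subgroup.card_mul_index (MulAction.stabilizer G n₀)
  have hstab : MulAction.stabilizer G n₀ ≤ N := by
    refine le_trans ?_ hC
    intro g hg
    rw [MulAction.mem_stabilizer_iff] at hg
    have h1 : g * (n₀ : G) * g⁻¹ = n₀ := by rw [← hsm, hg]
    have h2 : Commute g (n₀ : G) := by
      show g * (n₀ : G) = n₀ * g
      calc g * (n₀ : G) = g * n₀ * g⁻¹ * g := by group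
        _ = n₀ * g := by rw [h1]
    rw [Subgroup.mem_centralizer_iff]
    intro x hx
    have hx' : (⟨x, hx⟩ : N) ∈ Subgroup.zpowers n₀ := by rw [hgen]; exact Subgroup.mem_top _
    obtain ⟨k, hk⟩ := Subgroup.mem_zpowers_iff.1 hx'
    have hxk : x = (n₀ : G) ^ k := by
      have := congrArg Subtype.val hk
      simpa using this.symm
    rw [hxk]
    exact ((h2.zpow_right k).eq).symm
  have h3 : Nat.card (MulAction.stabilizer G n₀) ≤ s := by
    rw [← hcard]
    exact Subgroup.card_le_of_le hstab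
  have h4 : (MulAction.orbit G n₀).ncard < s := by
    rw [← hcard]
    apply Set.ncard_lt_card
    intro huniv
    have h1 : (1 : N) ∈ MulAction.orbit G n₀ := by rw [huniv]; exact Set.mem_univ _
    obtain ⟨g, hg⟩ := h1
    have hg' : g • n₀ = (1 : N) := hg
    have h5 : g * (n₀ : G) * g⁻¹ = 1 := by rw [← hsm, hg']; rfl
    apply hn₀
    apply Subtype.ext
    show (n₀ : G) = 1
    calc (n₀ : G) = g⁻¹ * (g * n₀ * g⁻¹) * g := by group
      _ = 1 := by rw [h5]; group
  rw [← hmul, hidx]
  exact Nat.mul_le_mul h3 (by omega)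

/-- an element of order 7 centralizes every normal subgroup of order dividing 27 -/
theorem e26_fp [Finite G] (H : Subgroup G) (hH : H.Normal) (hc : Nat.card H ∣ 27) (y : G)
    (hy : orderOf y = 7) : ∀ a ∈ H, y * a = a * y := by
  classical
  haveI := hH
  haveI : Fact (Nat.Prime 7) := ⟨by norm_num⟩
  letI : MulAction (Subgroup.zpowers y) H :=
    MulAction.compHom H ((MulAut.conjNormal : G →* MulAut H).comp (Subgroup.zpowers y).subtype)
  have hsm : ∀ (p : Subgroup.zpowers y) (x : H), p • x = MulAut.conjNormal (p : G) x :=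
    fun _ _ => rfl
  have hP : IsPGroup 7 (Subgroup.zpowers y) :=
    IsPGroup.of_card (n := 1) (by rw [Nat.card_zpowers, hy, pow_one])
  have hmod := hP.card_modEq_card_fixedPoints H
  let F : Subgroup H :=
    { carrier := MulAction.fixedPoints (Subgroup.zpowers y) H
      one_mem' := by
        intro p
        rw [hsm, map_one]
      mul_mem' := by
        intro a b ha hb p
        rw [hsm, map_mul, ← hsm, ← hsm, ha p, hb p]
      inv_mem' := by
        intro a ha p
        rw [hsm, map_inv, ← hsm, ha p] }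
  have hF : Nat.card (MulAction.fixedPoints (Subgroup.zpowers y) H) = Nat.card F := rfl
  have hdvd : Nat.card F ∣ Nat.card H := Subgroup.card_subgroup_dvd_card F
  have heq : Nat.card F = Nat.card H := by
    rw [hF] at hmod
    obtain ⟨j, hj, hHj⟩ := (Nat.dvd_prime_pow Nat.prime_three).1 (show Nat.card H ∣ 3 ^ 3 from hc)
    rw [hHj] at hdvd hmod ⊢
    obtain ⟨i, hi, hFi⟩ := (Nat.dvd_prime_pow Nat.prime_three).1 hdvd
    rw [hFi] at hmod ⊢
    have hij : i = j := by
      interval_cases j <;> interval_cases i <;> first | rfl | (exfalso; revert hmod; decide)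
    rw [hij]
  have htop : F = ⊤ := Subgroup.eq_top_of_card_eq F heq
  intro a ha
  have hmem : (⟨a, ha⟩ : H) ∈ F := by rw [htop]; exact Subgroup.mem_top _
  have h1 := hmem ⟨y, Subgroup.mem_zpowers y⟩
  have h2 : y * a * y⁻¹ = a := by
    have := congrArg Subtype.val h1
    rw [hsm] at this
    exact this
  calc y * a = y * a * y⁻¹ * y := by group
    _ = a * y := by rw [h2]

/-- class 2 with commutators in a central subgroup `N` of prime order `s`, non-abelian:
the centre has index at least `s²` -/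
theorem e26_idx [Finite G] (M N : Subgroup G) (s : ℕ) (hs : s.Prime) (hN : Nat.card N = s)
    (hMN : ∀ a ∈ M, ∀ b ∈ M, cm a b ∈ N) (hcen : M ≤ Subgroup.centralizer (N : Set G))
    (hnab : ¬ Ab M) : s ^ 2 ≤ (Subgroup.center M).index := by
  classical
  haveI : Fact s.Prime := ⟨hs⟩
  have hpow : ∀ a : M, a ^ s ∈ Subgroup.center M := by
    intro a
    rw [Subgroup.mem_center_iff]
    intro b
    have hz : cm (a : G) (b : G) ∈ N := hMN a a.2 b b.2
    have hza : cm (a : G) (b : G) * a = a * cm (a : G) (b : G) :=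
      Subgroup.mem_centralizer_iff.1 (hcen a.2) _ hz
    have hzs : cm (a : G) (b : G) ^ s = 1 := by
      have h1 : (⟨cm (a : G) (b : G), hz⟩ : N) ^ Nat.card N = 1 := pow_card_eq_one'
      have h2 := congrArg Subtype.val h1
      rw [hN] at h2
      simpa using h2
    have h3 := e26_pow_comm (a : G) (b : G) hza s
    rw [hzs, one_mul] at h3
    apply Subtype.ext
    simp only [Subgroup.coe_mul, Subgroup.coe_pow]
    exact h3.symm
  have hexp : ∀ x : M ⧸ Subgroup.center M, x ^ s = 1 := by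
    intro x
    induction x using QuotientGroup.induction_on with
    | H a =>
      rw [← QuotientGroup.mk_pow]
      exact (QuotientGroup.eq_one_iff _).2 (hpow a)
  have hpg : IsPGroup s (M ⧸ Subgroup.center M) := fun x => ⟨1, by rw [pow_one]; exact hexp x⟩
  obtain ⟨k, hk⟩ := IsPGroup.iff_card.1 hpg
  have hidx : (Subgroup.center M).index = s ^ k := hk
  rw [hidx]
  have hk2 : 2 ≤ k := by
    by_contra hlt
    have hcyc : IsCyclic (M ⧸ Subgroup.center M) := by
      have hk01 : k = 0 ∨ k = 1 := by omega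
      rcases hk01 with rfl | rfl
      · rw [pow_zero] at hk
        haveI : Subsingleton (M ⧸ Subgroup.center M) :=
          (Nat.card_eq_one_iff_unique.1 hk).1
        infer_instance
      · rw [pow_one] at hk
        exact isCyclic_of_prime_card hk
    apply hnab
    intro a ha b hb
    have h1 := commutative_of_cyclic_center_quotient (QuotientGroup.mk' (Subgroup.center M))
      (by rw [QuotientGroup.ker_mk']) (⟨a, ha⟩ : M) ⟨b, hb⟩
    exact congrArg Subtype.val h1
  exact Nat.pow_le_pow_right hs.pos hk2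

end grp2

section main

variable {q : ℕ} [Fact q.Prime] {V : Type u} [AddCommGroup V] [Module (ZMod q) V]
  {G : Type v} [Group G]

/-- orders of normal abelian subgroups and of their fields -/
theorem e26_abn_card [Finite V] [Nontrivial V] [Finite G]
    (hAbn : PkgAbn.{u, v}) (hDeg : PkgDeg.{u, v})
    (ρ : G →* (V ≃ₗ[ZMod q] V)) (hinj : Function.Injective ρ) (htr : Tr ρ) (hni : NI ρ)
    (hcard : Nat.card V = 64) (A : Subgroup G) (hAn : A.Normal) (hAb : Ab A) :
    IsFld (KA ρ A) ∧ ((Nat.card (KA ρ A) = 2 ∧ Nat.card A = 1) ∨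
      (Nat.card (KA ρ A) = 4 ∧ (Nat.card A = 1 ∨ Nat.card A = 3)) ∨
      (Nat.card (KA ρ A) = 8 ∧ (Nat.card A = 1 ∨ Nat.card A = 7))) := by
  obtain ⟨hcyc, hfld, hlt⟩ := hAbn ρ hinj htr A hAn hAb
  have hnirr : ¬ Irr ρ A := fun hirr => hni ⟨A, hAn, hcyc, hirr⟩
  have hlt' := hlt hnirr
  rw [hcard] at hlt'
  obtain ⟨m, hm, -⟩ := hDeg ρ hinj A (KA ρ A) hfld (e26_ab_cl2 A hAb)
    (fun a ha _ => Algebra.subset_adjoin ⟨a, ha, rfl⟩)
    (fun a ha f hf => hfld.1 _ (Algebra.subset_adjoin ⟨a, ha, rfl⟩) f hf)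
  rw [hcard] at hm
  have hk := e26_arith _ m hm hlt'
  have hdvd : Nat.card A ∣ Nat.card (KA ρ A) - 1 := by
    obtain ⟨a₀, ha₀⟩ := hcyc.exists_generator
    have h1 : (a₀ : G) ^ (Nat.card (KA ρ A) - 1) = 1 :=
      e26_pow_card ρ hinj _ hfld a₀ (Algebra.subset_adjoin ⟨a₀, a₀.2, rfl⟩)
    have h2 : a₀ ^ (Nat.card (KA ρ A) - 1) = 1 := Subtype.ext (by simpa using h1)
    rw [← orderOf_eq_card_of_forall_mem_zpowers ha₀]
    exact orderOf_dvd_of_pow_eq_one h2
  refine ⟨hfld, ?_⟩
  rcases hk with hk | hk | hk <;> rw [hk] at hdvd ⊢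
  · left
    exact ⟨rfl, Nat.dvd_one.1 hdvd⟩
  · right; left
    exact ⟨rfl, (Nat.dvd_prime Nat.prime_three).1 hdvd⟩
  · right; right
    exact ⟨rfl, (Nat.dvd_prime (by norm_num : Nat.Prime 7)).1 hdvd⟩

/-- **[E26]** -/
theorem pkgE26 (hOrb : PkgOrb.{u, v}) (hAbn : PkgAbn.{u, v}) (hDeg : PkgDeg.{u, v})
    (hCen : PkgCen.{u, v}) : PkgE26.{u, v} := by
  intro q _ V _ _ _ _ G _ _ ρ hsol hinj htr hq hcard hni
  subst hq
  classical
  have h63 : 63 ∣ Nat.card G := by
    have h := hOrb ρ htr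
    rw [hcard] at h
    exact h
  have hGpos : 0 < Nat.card G := Nat.card_pos
  have hG63 : 63 ≤ Nat.card G := Nat.le_of_dvd hGpos h63
  have hA := e26_abn_card hAbn hDeg ρ hinj htr hni hcard
  have hnt : Nontrivial G := by
    rw [← Finite.one_lt_card_iff_nontrivial]
    omega
  obtain ⟨N₀, hN₀n, hN₀a, hN₀ne⟩ := e26_exists_ab hsol hnt
  obtain ⟨N, ⟨hNn, hNa⟩, hNmax⟩ := Set.exists_max_image {B : Subgroup G | B.Normal ∧ Ab B}
    (fun B => Nat.card B) (Set.toFinite _) ⟨N₀, hN₀n, hN₀a⟩
  have hNne : N ≠ ⊥ := by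
    intro h
    have h1 := hNmax N₀ ⟨hN₀n, hN₀a⟩
    simp only [h, Subgroup.card_bot] at h1
    exact hN₀ne ((Subgroup.card_le_one_iff_eq_bot N₀).1 h1)
  haveI := hNn
  have hNC : N ≤ Subgroup.centralizer (N : Set G) := fun a ha =>
    Subgroup.mem_centralizer_iff.2 (fun h hh => hNa h hh a ha)
  have hstar : ∀ B : Subgroup G, B.Normal → Ab B → B ≤ Subgroup.centralizer (N : Set G) →
      B ≤ N := by
    intro B hBn hBa hBC
    haveI := hBn
    have h1 : (B ⊔ N).Normal := inferInstance
    have h2 : Ab (B ⊔ N) := e26_sup_ab B N hBa hNa hBC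
    have h3 := hNmax (B ⊔ N) ⟨h1, h2⟩
    have h4 : N = B ⊔ N := Subgroup.eq_of_le_of_card_ge le_sup_right h3
    rw [h4]
    exact le_sup_left
  obtain ⟨hfld, hord⟩ := hA N hNn hNa
  have hN1 : Nat.card N ≠ 1 := fun h => hNne (Subgroup.card_eq_one.1 h)
  have hsK : (Nat.card N = 3 ∧ Nat.card (KA ρ N) = 4) ∨
      (Nat.card N = 7 ∧ Nat.card (KA ρ N) = 8) := by
    rcases hord with ⟨_, h1⟩ | ⟨hk, h1 | h3⟩ | ⟨hk, h1 | h7⟩
    · exact absurd h1 hN1
    · exact absurd h1 hN1
    · exact Or.inl ⟨h3, hk⟩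
    · exact absurd h1 hN1
    · exact Or.inr ⟨h7, hk⟩
  have hCN : ¬ Subgroup.centralizer (N : Set G) ≤ N := by
    intro hle
    rcases hsK with ⟨h3, -⟩ | ⟨h7, -⟩
    · have := e26_nc N hNn 3 Nat.prime_three h3 hle
      omega
    · have := e26_nc N hNn 7 (by norm_num) h7 hle
      omega
  obtain ⟨M, ⟨hMn, hMC, hMN⟩, hMmin⟩ := Set.exists_min_image
    {B : Subgroup G | B.Normal ∧ B ≤ Subgroup.centralizer (N : Set G) ∧ ¬ B ≤ N}
    (fun B => Nat.card B) (Set.toFinite _)
    ⟨Subgroup.centralizer (N : Set G), inferInstance, le_refl _, hCN⟩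
  haveI := hMn
  have hMne : M ≠ ⊥ := by
    rintro rfl
    exact hMN bot_le
  have hcomm : ⁅M, M⁆ ≤ N := by
    by_contra hcon
    have hlt : ⁅M, M⁆ < M := Group.IsSolvable.commutator_lt_of_ne_bot hMne
    have h1 := hMmin ⁅M, M⁆ ⟨inferInstance, hlt.le.trans hMC, hcon⟩
    have h2 : ⁅M, M⁆ = M := Subgroup.eq_of_le_of_card_ge hlt.le h1
    exact hlt.ne h2
  have hcmN : ∀ a ∈ M, ∀ b ∈ M, cm a b ∈ N := fun a ha b hb =>
    hcomm (Subgroup.commutator_mem_commutator ha hb)
  have hMcentN : ∀ a ∈ M, ∀ n ∈ N, n * a = a * n := fun a ha n hn =>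
    Subgroup.mem_centralizer_iff.1 (hMC ha) n hn
  have hCl2 : Cl2 M := fun a ha b hb c hc => hMcentN c hc _ (hcmN a ha b hb)
  have hnab : ¬ Ab M := fun hab => hMN (hstar M hMn hab hMC)
  have hZM : ZM M ≤ N := by
    apply hstar (ZM M)
    · unfold ZM
      infer_instance
    · intro a ha b hb
      exact (Subgroup.mem_centralizer_iff.1 ha.2 b hb.1).symm
    · exact inf_le_left.trans hMC
  have h1 : ∀ a ∈ M, (∀ b ∈ M, a * b = b * a) → toE ρ a ∈ KA ρ N := by
    intro a ha hab
    have hz : a ∈ ZM M := ⟨ha, Subgroup.mem_centralizer_iff.2 (fun b hb => (hab b hb).symm)⟩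
    exact Algebra.subset_adjoin ⟨a, hZM hz, rfl⟩
  have hcomK : ∀ g : G, (∀ n ∈ N, n * g = g * n) →
      ∀ f ∈ KA ρ N, toE ρ g * f = f * toE ρ g := by
    intro g hg f hf
    have hle : KA ρ N ≤ Subalgebra.centralizer (ZMod 2) {toE ρ g} := by
      apply Algebra.adjoin_le
      rintro _ ⟨n, hn, rfl⟩
      rw [SetLike.mem_coe, Subalgebra.mem_centralizer_iff (ZMod 2)]
      intro x hx
      rw [Set.mem_singleton_iff] at hx
      subst hx
      rw [← e26_toE_mul, ← e26_toE_mul, hg n hn]
    exact ((Subalgebra.mem_centralizer_iff (ZMod 2)).1 (hle hf)) (toE ρ g) rfl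
  have h2 : ∀ a ∈ M, ∀ f ∈ KA ρ N, toE ρ a * f = f * toE ρ a := fun a ha =>
    hcomK a (hMcentN a ha)
  obtain ⟨m, hm, hidx⟩ := hDeg ρ hinj M (KA ρ N) hfld hCl2 h1 h2
  rw [hcard] at hm
  rcases hsK with ⟨h3, hk⟩ | ⟨h7, hk⟩
  · rw [hk] at hm
    have hm3 : m = 3 := by
      have h4 : (4 : ℕ) ^ 3 = 4 ^ m := by rw [← hm]; norm_num
      exact (Nat.pow_right_injective (by norm_num) h4).symm
    subst hm3
    have hidx9 : 3 ^ 2 ≤ (Subgroup.center M).index :=
      e26_idx M N 3 Nat.prime_three h3 hcmN hMC hnab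
    have hidx' : (Subgroup.center M).index = 3 ^ 2 := le_antisymm hidx hidx9
    have hMcard : Nat.card M ∣ 27 := by
      have hc1 : Nat.card (Subgroup.center M) ∣ 3 := by
        have hle : (Subgroup.center M).map M.subtype ≤ N := by
          rintro _ ⟨z, hz, rfl⟩
          apply hZM
          refine ⟨z.2, Subgroup.mem_centralizer_iff.2 (fun b hb => ?_)⟩
          have h5 := Subgroup.mem_center_iff.1 hz ⟨b, hb⟩
          exact congrArg Subtype.val h5
        have h6 := Subgroup.card_dvd_of_le hle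
        rw [Subgroup.card_map_of_injective (Subgroup.subtype_injective M), h3] at h6
        exact h6
      have h7 := Subgroup.card_mul_index (Subgroup.center M)
      rw [hidx'] at h7
      rw [← h7]
      exact Nat.mul_dvd_mul hc1 (dvd_refl _)
    haveI : Fact (Nat.Prime 7) := ⟨by norm_num⟩
    obtain ⟨y, hy⟩ := exists_prime_orderOf_dvd_card' 7 (dvd_trans (by norm_num : 7 ∣ 63) h63)
    have hyM := e26_fp M hMn hMcard y hy
    have hyN := e26_fp N hNn (by rw [h3]; norm_num) y hy
    have hyK := hCen ρ hinj M (KA ρ N) hfld hCl2 h1 h2 3 (by rw [hcard, hk]; norm_num) hidx' y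
      hyM (hcomK y (fun n hn => (hyN n hn).symm))
    have hy3 := e26_pow_card ρ hinj (KA ρ N) hfld y hyK
    rw [hk] at hy3
    have h8 := orderOf_dvd_of_pow_eq_one hy3
    rw [hy] at h8
    norm_num at h8
  · rw [hk] at hm
    have hm2 : m = 2 := by
      have h4 : (8 : ℕ) ^ 2 = 8 ^ m := by rw [← hm]; norm_num
      exact (Nat.pow_right_injective (by norm_num) h4).symm
    subst hm2
    have hidx49 : 7 ^ 2 ≤ (Subgroup.center M).index :=
      e26_idx M N 7 (by norm_num) h7 hcmN hMC hnab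
    norm_num at hidx49 hidx
    omega

end main

end Cfsg.Agent.Lib.Helper68.HUPT
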